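import Mathlib
import Cfsg.Agent.Lib.Transfer.Residual
import Cfsg.Agent.Lib.Core.Cores

/-!
Groups of rank one: a `p`-element centralising the normaliser of a Sylow `p`-subgroup is trivial.
-/

set_option autoImplicit false

namespace CfsgLib.RkZ

open Subgroup Cfsg

variable {p : ℕ} {K : Type*} [Group K]

/-- the normaliser -/
def NN (U : Sylow p K) : Subgroup K := normalizer ((U : Subgroup K) : Set K)

theorem le_NN (U : Sylow p K) : (U : Subgroup K) ≤ NN U := le_normalizer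

instance (U : Sylow p K) : ((U : Subgroup K).subgroupOf (NN U)).Normal := normal_in_normalizer

/-- Bruhat data with a cyclic torus containing a fixed point free element of order dividing `p - 1` -/
structure D (U : Sylow p K) (w b ζ : K) : Prop where
  per : commutator K = ⊤
  br : ∀ g, g ∈ NN U ∨
    ∃ u ∈ (U : Subgroup K), ∃ n ∈ NN U, g = u * w * n
  ti : ∀ u ∈ (U : Subgroup K), w⁻¹ * u * w ∈ NN U → u = 1
  bN : b ∈ NN U
  bw : w⁻¹ * b * w ∈ NN U
  bC : ∀ u ∈ (U : Subgroup K), b * u = u * b → u = 1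
  bp : b ^ (p - 1) = 1
  zN : ζ ∈ NN U
  cy : ∀ x ∈ NN U, ∃ k : ℕ, (ζ ^ k)⁻¹ * x ∈ (U : Subgroup K)

/-- the data exist -/
def R1 (p : ℕ) (K : Type*) [Group K] : Prop := ∃ (U : Sylow p K) (w b ζ : K), D U w b ζ

theorem isPGroup_zpowers {x : K} {k : ℕ} (h : x ^ p ^ k = 1) : IsPGroup p (zpowers x) := by
  rintro ⟨_, n, rfl⟩
  exact ⟨k, Subtype.ext (by
    change (x ^ n) ^ p ^ k = 1
    rw [← zpow_natCast, ← zpow_mul, mul_comm, zpow_mul, zpow_natCast, h, one_zpow])⟩

theorem mem_of_pel (U : Sylow p K) {x : K} (hx : x ∈ NN U) {k : ℕ}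
    (h : x ^ p ^ k = 1) : x ∈ (U : Subgroup K) := by
  have := (isPGroup_zpowers h).inf_normalizer_sylow U
  exact (this.le ⟨mem_zpowers x, hx⟩).2

theorem pel_of_mem (U : Sylow p K) {x : K} (hx : x ∈ (U : Subgroup K)) : ∃ k, x ^ p ^ k = 1 :=
  (U.isPGroup' ⟨x, hx⟩).imp fun _ h => congrArg Subtype.val h

theorem conj_mem {U : Subgroup K} {n u : K} (hn : n ∈ normalizer (U : Set K)) (hu : u ∈ U) : n * u * n⁻¹ ∈ U :=
  (mem_normalizer_iff.1 hn u).1 hu

section map

variable [Finite K] [Fact p.Prime] {K' : Type*} [Group K'] {π : K →* K'} (hπ : Function.Surjective π)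
  (hk : π.ker ≤ center K)

include hk in
theorem mem_norm_map (U : Sylow p K) (x : K) :
    π x ∈ NN (U.mapSurjective hπ) ↔ x ∈ NN U := by
  rw [NN, NN, Sylow.coe_mapSurjective]
  refine ⟨fun h => mem_normalizer_fintype fun u hu => ?_, fun h => le_normalizer_map π ⟨x, h, rfl⟩⟩
  obtain ⟨u', hu', e⟩ := conj_mem h (mem_map_of_mem π hu)
  obtain ⟨k, hk'⟩ := pel_of_mem U hu
  refine mem_of_pel U ?_ (k := k) (by rw [conj_pow, hk', mul_one, mul_inv_cancel])
  have : u'⁻¹ * (x * u * x⁻¹) ∈ π.ker := by simp [MonoidHom.mem_ker, e, mul_assoc]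
  simpa using mul_mem (le_NN U hu') (show _ ∈ NN U from center_le_normalizer _ (hk this))

include hk in
theorem D.map {U : Sylow p K} {w b ζ : K} (h : D U w b ζ) : D (U.mapSurjective hπ) (π w) (π b) (π ζ) where
  per := by
    rw [_root_.commutator, ← map_top_of_surjective π hπ, ← map_commutator, ← _root_.commutator, h.per]
  br g := by
    obtain ⟨g, rfl⟩ := hπ g
    rcases h.br g with e | ⟨u, hu, n, hn, rfl⟩
    · exact .inl ((mem_norm_map hπ hk U g).2 e)
    · exact .inr ⟨π u, mem_map_of_mem π hu, π n, (mem_norm_map hπ hk U n).2 hn, by simp⟩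
  ti := by
    rintro _ ⟨u, hu, rfl⟩ e
    rw [h.ti u hu ((mem_norm_map hπ hk U _).1 (by simpa using e)), map_one]
  bN := (mem_norm_map hπ hk U _).2 h.bN
  bw := by simpa using (mem_norm_map hπ hk U _).2 h.bw
  bC := by
    rintro _ ⟨u, hu, rfl⟩ e
    have h1 : b * u * b⁻¹ * u⁻¹ ∈ π.ker := by simp [MonoidHom.mem_ker, e]
    have h2 := h.bC _ (mul_mem (conj_mem h.bN hu) (inv_mem hu)) (mem_center_iff.1 (hk h1) b)
    rw [h.bC u hu (by rwa [mul_inv_eq_one, mul_inv_eq_iff_eq_mul] at h2), map_one]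
  bp := by rw [← map_pow, h.bp, map_one]
  zN := (mem_norm_map hπ hk U _).2 h.zN
  cy x hx := by
    obtain ⟨x, rfl⟩ := hπ x
    obtain ⟨k, e⟩ := h.cy x ((mem_norm_map hπ hk U _).1 hx)
    exact ⟨k, by simpa using mem_map_of_mem π e⟩

include hπ hk in
theorem R1.map (h : R1 p K) : R1 p K' :=
  let ⟨_, _, _, _, h⟩ := h
  ⟨_, _, _, _, h.map hπ hk⟩

theorem R1.equiv (e : K' ≃* K) (h : R1 p K) : R1 p K' :=
  h.map (π := e.symm.toMonoidHom) e.symm.surjective (by
    rw [(MonoidHom.ker_eq_bot_iff _).2 e.symm.injective]; exact bot_le)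

theorem R1.quot (h : R1 p K) : R1 p (K ⧸ center K) :=
  h.map (QuotientGroup.mk'_surjective _) (QuotientGroup.ker_mk' _).le

end map

variable {U : Sylow p K} {w b ζ : K}

theorem D.gen [Finite K] [Fact p.Prime] (h : D U w b ζ) : normalClosure ((U : Subgroup K) : Set K) = ⊤ := by
  set M := normalClosure ((U : Subgroup K) : Set K)
  have h1 : NN U ⊔ M = ⊤ := U.normalizer_sup_eq_top' le_normalClosure
  have h2 : ∀ g : K, ∃ k : ℕ, (g : K ⧸ M) = (ζ : K ⧸ M) ^ k := fun g => by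
    obtain ⟨n, hn, m, hm, rfl⟩ := mem_sup_of_normal_right.1 (h1.ge (mem_top g))
    obtain ⟨k, e⟩ := h.cy n hn
    refine ⟨k, ?_⟩
    rw [QuotientGroup.mk_mul, (QuotientGroup.eq_one_iff m).2 hm, mul_one, ← QuotientGroup.mk_pow, eq_comm,
      QuotientGroup.eq]
    exact le_normalClosure e
  rw [eq_top_iff, ← h.per, _root_.commutator, commutator_le]
  intro x _ y _
  obtain ⟨i, hi⟩ := h2 x
  obtain ⟨j, hj⟩ := h2 y
  rw [← QuotientGroup.eq_one_iff, ← QuotientGroup.mk'_apply, map_commutatorElement, commutatorElement_eq_one_iff_mul_comm,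
    QuotientGroup.mk'_apply, QuotientGroup.mk'_apply, hi, hj, ← pow_add, ← pow_add, add_comm]

theorem aut_norm [Finite K] {α : MulAut K} (hα : ∀ u ∈ (U : Subgroup K), α u ∈ (U : Subgroup K)) {x : K}
    (hx : x ∈ NN U) : α x ∈ NN U := by
  have h1 : (U : Subgroup K).map α.toMonoidHom = U :=
    eq_of_le_of_card_ge (map_le_iff_le_comap.2 hα) (card_map_of_injective α.injective).ge
  rw [NN, ← h1]
  exact le_normalizer_map _ ⟨x, hx, rfl⟩

/-- an automorphism centralising `U` and `b` is trivial -/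
theorem D.aut_eq [Finite K] [Fact p.Prime] (h : D U w b ζ) (α : MulAut K) (hU : ∀ u ∈ (U : Subgroup K), α u = u)
    (hb : α b = b) (g : K) : α g = g := by
  have hα : ∀ x ∈ NN U, α x ∈ NN U := fun x => aut_norm fun u hu => by rwa [hU u hu]
  have hα' : ∀ x, α x ∈ NN U → x ∈ NN U := fun x hx => by
    simpa using aut_norm (α := α⁻¹) (fun u hu => by
      rwa [← hU u hu, MulAut.inv_apply, MulEquiv.symm_apply_apply]) hx
  have hw : w⁻¹ * α w ∈ NN U := by
    rcases h.br (α w) with e | ⟨u, hu, n, hn, e⟩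
    · exact mul_mem (inv_mem (hα' w e)) e
    · have h1 := hα _ h.bw
      rw [map_mul, map_mul, map_inv, hb, e] at h1
      have h2 := h.ti _ (mul_mem (inv_mem hu) (conj_mem h.bN hu)) (by
        have := mul_mem (mul_mem (mul_mem hn h1) (inv_mem hn)) (inv_mem h.bw)
        simpa [mul_assoc] using this)
      rw [h.bC u hu (by rw [inv_mul_eq_one] at h2; rw [← mul_inv_eq_iff_eq_mul, ← h2])] at e
      simpa [e] using hn
  have hg : ∀ g, g⁻¹ * α g ∈ NN U := fun g => by
    rcases h.br g with e | ⟨u, hu, n, hn, rfl⟩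
    · exact mul_mem (inv_mem e) (hα g e)
    · have := mul_mem (mul_mem (inv_mem hn) hw) (hα n hn)
      simpa [hU u hu, mul_assoc] using this
  have hv : ∀ g, ∀ u ∈ (U : Subgroup K), α (g * u * g⁻¹) = g * u * g⁻¹ := fun g u hu => by
    set v := g * u * g⁻¹ with hv
    have h1 : ∀ x, x⁻¹ * (v⁻¹ * α v) * x ∈ NN U := fun x => by
      simpa [mul_assoc] using mul_mem (hg (v * x)) (inv_mem (hg x))
    obtain ⟨k, hk⟩ : ∃ k, (v⁻¹ * α v) ^ p ^ k = 1 := by
      obtain ⟨k, hk⟩ := pel_of_mem U (mul_mem (inv_mem hu) (conj_mem (hg g) hu))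
      refine ⟨k, ?_⟩
      have : v⁻¹ * α v = g * (u⁻¹ * (g⁻¹ * α g * u * (g⁻¹ * α g)⁻¹)) * g⁻¹ := by
        simp [hv, hU u hu, mul_assoc]
      rw [this, conj_pow, hk, mul_one, mul_inv_cancel]
    exact (inv_mul_eq_one.1 (h.ti _ (mem_of_pel U (by simpa using h1 1) hk) (h1 w))).symm
  have : normalClosure ((U : Subgroup K) : Set K) ≤ α.toMonoidHom.eqLocus (MonoidHom.id K) := by
    refine (closure_le _).2 fun x hx => ?_
    obtain ⟨u, hu, c, rfl⟩ := by simpa only [Group.mem_conjugatesOfSet_iff, isConj_iff] using hx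
    exact hv c u hu
  exact this (h.gen.ge (mem_top g))

variable {H : Type*} [Group H] [Finite H] [hp : Fact p.Prime] {K : Subgroup H} [K.Normal] {U : Sylow p K}
  {w b ζ : K}

theorem D.b_norm (h : D U w b ζ) (S : Sylow p H) (hS : (S : Subgroup H).comap K.subtype = U) :
    (b : H) ∈ NN S := by
  classical
  set N := NN U
  have hm : ∀ u : K, u ∈ (U : Subgroup K) ↔ (u : H) ∈ (S : Subgroup H) := fun u => by rw [← hS]; rfl
  have : IsCyclic (N ⧸ (U : Subgroup K).subgroupOf N) := ⟨⟨((⟨ζ, h.zN⟩ : N) : N ⧸ _), fun x => by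
    induction x using QuotientGroup.induction_on with | H x => ?_
    obtain ⟨k, e⟩ := h.cy x x.2
    refine mem_powers_iff_mem_zpowers.1 ⟨k, ?_⟩
    dsimp only
    rw [← QuotientGroup.mk_pow, QuotientGroup.eq]
    exact e⟩⟩
  letI : Fintype (N ⧸ (U : Subgroup K).subgroupOf N) := Fintype.ofFinite _
  have hc := IsCyclic.card_pow_eq_one_le (α := N ⧸ (U : Subgroup K).subgroupOf N) (n := p - 1)
    (by have := hp.out.two_le; omega)
  let f : N ⧸ (U : Subgroup K).subgroupOf N → H ⧸ (S : Subgroup H) := fun q => (((q.out : N) : K) : H)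
  have hf : ∀ x : N, f x = ((x : K) : H) := fun x => by
    obtain ⟨n, hn⟩ := QuotientGroup.mk_out_eq_mul ((U : Subgroup K).subgroupOf N) x
    simp only [f, hn]
    exact (QuotientGroup.mk_mul_of_mem _ ((hm _).1 n.2))
  have hsub : MulAction.orbit (S : Subgroup H) (((b : K) : H) : H ⧸ (S : Subgroup H)) ⊆
      ↑((Finset.univ.filter fun a : N ⧸ (U : Subgroup K).subgroupOf N => a ^ (p - 1) = 1).image f) := by
    rintro _ ⟨s, rfl⟩
    have h1 : MulAut.conjNormal (s : H) b ∈ N :=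
      aut_norm (fun u hu => (hm _).2 (mul_mem (mul_mem s.2 ((hm u).1 hu)) (inv_mem s.2))) h.bN
    refine Finset.mem_coe.2 (Finset.mem_image.2 ⟨((⟨_, h1⟩ : N) : N ⧸ _), Finset.mem_filter.2 ⟨Finset.mem_univ _, ?_⟩, ?_⟩)
    · rw [← QuotientGroup.mk_pow, show (⟨_, h1⟩ : N) ^ (p - 1) = 1 from
        Subtype.ext (by rw [coe_pow, ← map_pow, h.bp, map_one, coe_one]), QuotientGroup.mk_one]
    · rw [hf]
      exact QuotientGroup.mk_mul_of_mem _ (inv_mem s.2)
  obtain ⟨k, hk⟩ := S.isPGroup'.card_orbit (((b : K) : H) : H ⧸ (S : Subgroup H))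
  have hle := Set.ncard_le_ncard hsub (Finset.finite_toSet _)
  rw [Set.ncard_coe_finset, ← Nat.card_coe_set_eq, hk] at hle
  have hk0 : k = 0 := by
    by_contra e
    have := Nat.le_self_pow e p
    have := (Finset.card_image_le (f := f)).trans hc
    have := hp.out.two_le
    omega
  rw [hk0, pow_zero] at hk
  rw [← inv_mem_iff]
  refine mem_normalizer_fintype fun s hs => ?_
  have := (Nat.card_eq_one_iff_unique.1 hk).1.elim ⟨_, MulAction.mem_orbit_self _⟩
    ⟨_, MulAction.mem_orbit _ (⟨s, hs⟩ : (S : Subgroup H))⟩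
  rw [inv_inv, mul_assoc]
  exact QuotientGroup.eq.1 (congrArg Subtype.val this)

/-- the main lemma -/
theorem key (h : R1 p (pResidual p H)) (hO : pCore p H = ⊥) (S : Sylow p H) {z : H} {k : ℕ} (hz : z ^ p ^ k = 1)
    (hc : ∀ n ∈ NN S, n * z = z * n) : z = 1 := by
  have := Transfer.pResidual_normal p H
  obtain ⟨U, w, b, ζ, h⟩ := h
  obtain ⟨T, hT⟩ := U.exists_comap_subtype_eq
  obtain ⟨g, rfl⟩ := MulAction.exists_smul_eq H S T
  set y := g * z * g⁻¹ with hy
  have hc' : ∀ n ∈ NN (g • S), n * y = y * n := fun n hn => by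
    have h1 : g⁻¹ * n * g ∈ NN S := by
      refine Sylow.smul_eq_iff_mem_normalizer.1 ?_
      rw [mul_smul, mul_smul, Sylow.smul_eq_iff_mem_normalizer.2 hn, inv_smul_smul]
    have := hc _ h1
    calc n * y = g * (g⁻¹ * n * g * z) * g⁻¹ := by simp [hy, mul_assoc]
      _ = y * n := by rw [this]; simp [hy, mul_assoc]
  have fix : ∀ x : pResidual p H, (x : H) ∈ NN (g • S) →
      MulAut.conjNormal y x = x := fun x hx =>
    Subtype.ext (by rw [MulAut.conjNormal_apply, ← hc' _ hx, mul_inv_cancel_right])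
  have h1 := h.aut_eq (MulAut.conjNormal y) (fun u hu => fix u (le_NN _ (by rw [← hT] at hu; exact hu)))
    (fix b (h.b_norm _ hT))
  have h2 : ∀ x : H, x ∈ centralizer ({y} : Set H) := fun x => by
    refine (sup_le (fun x hx => ?_) fun x hx => ?_ : _ ≤ centralizer ({y} : Set H))
      ((Transfer.pResidual_sup_sylow (g • S)).ge (mem_top x)) <;> rw [mem_centralizer_singleton_iff]
    · have := congrArg Subtype.val (h1 ⟨x, hx⟩)
      rw [MulAut.conjNormal_apply, mul_inv_eq_iff_eq_mul] at this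
      exact this.symm
    · exact hc' x (le_NN _ hx)
  have h3 : zpowers y ≤ pCore p H := by
    have : (zpowers y).Normal := ⟨by
      rintro _ ⟨n, rfl⟩ x
      have : Commute x y := mem_centralizer_singleton_iff.1 (h2 x)
      dsimp only
      rw [(this.zpow_right n).eq, mul_inv_cancel_right]
      exact zpow_mem (mem_zpowers y) n⟩
    exact Core.le_pCore (isPGroup_zpowers (k := k) (by rw [hy, conj_pow, hz, mul_one, mul_inv_cancel]))
  have h4 := mem_bot.1 (hO ▸ h3 (mem_zpowers y))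
  simpa [hy] using h4

end CfsgLib.RkZ
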