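import Mathlib
import Cfsg.Agent.Lib.RkZ.Key
import Cfsg.Agent.Lib.SL2.Basic
import Cfsg.Agent.Lib.U3Idx.Model

/-!
The rank one data in `SL₂(q)` and `SU₃(q)`.
-/

set_option autoImplicit false

namespace CfsgLib.RkZ

open Subgroup Cfsg Matrix MatrixGroups

variable {p : ℕ} [hp : Fact p.Prime]

theorem R1.of_model {K V C : Type*} [Group K] [Finite K] [Group V] [Nontrivial V] [Group C] [Finite C] [IsCyclic C]
    (uS : V →* K) (hS : C →* K) (B : Subgroup K) (w : K) (l : C) (per : commutator K = ⊤)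
    (inj : Function.Injective uS) {n m : ℕ} (hV : Nat.card V = p ^ n) (hK : Nat.card K = p ^ n * m) (hm : ¬ p ∣ m)
    (hB : ∀ g ∈ B, ∃ u c, g = uS u * hS c) (uB : ∀ u, uS u ∈ B) (cB : ∀ c, hS c ∈ B)
    (cu : ∀ c u, ∃ u', hS c * uS u = uS u' * hS c) (br : ∀ g ∉ B, ∃ u, (uS u * w)⁻¹ * g ∈ B)
    (ti : ∀ u, w⁻¹ * uS u * w ∈ B → u = 1) (bw : w⁻¹ * hS l * w ∈ B)
    (bC : ∀ u, hS l * uS u = uS u * hS l → u = 1) (bp : l ^ (p - 1) = 1) : R1 p K := by
  have h1 : Nat.card uS.range = p ^ n := by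
    rw [← hV]; exact Nat.card_congr (MonoidHom.ofInjective inj).symm.toEquiv
  have h2 : ¬ p ∣ uS.range.index := by
    have := uS.range.card_mul_index
    rw [h1, hK] at this
    rwa [Nat.eq_of_mul_eq_mul_left (pow_pos hp.out.pos n) this]
  let U : Sylow p K := (IsPGroup.of_card h1).toSylow h2
  have hU : (U : Subgroup K) = uS.range := rfl
  have h3 : B ≤ NN U := fun g hg => by
    obtain ⟨u, c, rfl⟩ := hB g hg
    refine mul_mem (le_NN U ⟨u, rfl⟩) (mem_normalizer_fintype ?_)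
    rintro _ ⟨v, rfl⟩
    obtain ⟨v', e⟩ := cu c v
    exact ⟨v', by rw [e, mul_inv_cancel_right]⟩
  have h4 : NN U = B := le_antisymm (fun g hg => by
    by_contra hc
    obtain ⟨u, e⟩ := br g hc
    have hw : w⁻¹ ∈ NN U := by
      simpa [mul_assoc] using mul_mem (mul_mem (h3 e) (inv_mem hg)) (h3 (uB u))
    obtain ⟨v, hv⟩ := exists_ne (1 : V)
    obtain ⟨v', e'⟩ := conj_mem hw (show uS v ∈ (U : Subgroup K) from ⟨v, rfl⟩)
    exact hv (ti v (by rw [inv_inv] at e'; rw [← e']; exact uB v'))) h3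
  obtain ⟨ζ, hζ⟩ := IsCyclic.exists_monoid_generator (α := C)
  refine ⟨U, w, hS l, hS ζ, per, fun g => ?_, ?_, h3 (cB l), h3 bw, ?_, by rw [← map_pow, bp, map_one], h3 (cB ζ),
    fun x hx => ?_⟩
  · by_cases hg : g ∈ B
    · exact .inl (h3 hg)
    · obtain ⟨u, e⟩ := br g hg
      exact .inr ⟨uS u, ⟨u, rfl⟩, _, h3 e, by rw [mul_inv_cancel_left]⟩
  · rintro _ ⟨u, rfl⟩ e
    rw [ti u (h4 ▸ e), map_one]
  · rintro _ ⟨u, rfl⟩ e
    rw [bC u e, map_one]
  · obtain ⟨u, c, rfl⟩ := hB x (h4 ▸ hx)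
    obtain ⟨k, rfl⟩ := hζ c
    refine ⟨k, ?_⟩
    have := conj_mem (inv_mem (h3 (cB (ζ ^ k)))) (show uS u ∈ (U : Subgroup K) from ⟨u, rfl⟩)
    rw [inv_inv, mul_assoc, map_pow] at this
    rwa [map_pow]

variable {F : Type*} [Field F] [Fintype F]

omit [Fintype F] in
theorem two_facts [CharP F p] (h5 : 5 ≤ p) : (2 : F) ≠ 0 ∧ (2 : F) * 2 ≠ 1 ∧ (2 : F) ^ (p - 1) = 1 := by
  have h2 : (2 : F) ≠ 0 := fun e => by
    have := Nat.le_of_dvd two_pos ((CharP.cast_eq_zero_iff F p 2).1 (by exact_mod_cast e)); omega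
  refine ⟨h2, fun e => ?_, mul_right_cancel₀ h2 ?_⟩
  · have := Nat.le_of_dvd three_pos ((CharP.cast_eq_zero_iff F p 3).1 (by
      push_cast; linear_combination e)); omega
  · rw [← pow_succ, Nat.sub_add_cancel hp.out.pos, ← one_add_one_eq_two, add_pow_char, one_pow, one_mul]

theorem not_dvd_sq_sub {a : ℕ} (ha : 1 ≤ a) : ¬ p ∣ (p ^ a) ^ 2 - 1 := fun h => by
  have h1 : p ∣ (p ^ a) ^ 2 := (dvd_pow_self p (by omega)).trans (dvd_pow_self _ two_ne_zero)
  exact hp.out.one_lt.ne' (Nat.dvd_one.1 ((Nat.dvd_sub_iff_right (Nat.one_le_pow _ _ (pow_pos hp.out.pos a)) h1).1 h))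

open SL2 in
theorem r1_SL2 (h5 : 5 ≤ p) {a : ℕ} (ha : 1 ≤ a) (hF : Fintype.card F = p ^ a) : R1 p SL(2, F) := by
  classical
  have := charP_of_card_eq_prime_pow hF
  obtain ⟨h2, h4, h6⟩ := two_facts (F := F) h5
  let B : Subgroup SL(2, F) :=
    { carrier := {g | g 1 0 = 0}
      one_mem' := one_10
      mul_mem' := fun {g h} hg hh => by
        simp only [Set.mem_ofPred_eq] at *; rw [mul_ap, hg, hh, zero_mul, mul_zero, add_zero]
      inv_mem' := fun {g} hg => by simp only [Set.mem_ofPred_eq] at *; rw [inv_10, hg, neg_zero] }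
  have hB : ∀ g, g ∈ B ↔ g 1 0 = 0 := fun _ => Iff.rfl
  refine R1.of_model (V := Multiplicative F) (MonoidHom.mk' (fun x => uu x.toAdd) fun x y => uu_add _ _) dgHom B ww
    (Units.mk0 2 h2) (Matrix.SL2.commutator_eq_top h2 (by rwa [sq])) (fun x y e => uu_injective (F := F) e) (n := a)
    (m := (p ^ a) ^ 2 - 1) (by rw [Nat.card_eq_fintype_card, Fintype.card_multiplicative, hF])
    (by rw [card_SL2, hF]) (not_dvd_sq_sub ha) (fun g hg => ?_) (fun _ => rfl) (fun _ => rfl) (fun c u => ?_)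
    (fun g hg => ?_) (fun u e => ?_) ?_ (fun u e => ?_) (Units.ext h6)
  · have hd := det_eq g
    rw [hB] at hg
    rw [hg, mul_zero, sub_zero] at hd
    refine ⟨.ofAdd (g 0 1 * g 0 0), Units.mkOfMulEqOne _ _ hd, ext2 ?_ ?_ ?_ ?_⟩ <;>
      simp [mul_ap, dgHom_apply, hg, Units.mkOfMulEqOne, mul_assoc, hd]
  · refine ⟨.ofAdd (c * c * u.toAdd), ext2 ?_ ?_ ?_ ?_⟩ <;> simp [mul_ap, dgHom_apply]
    field_simp
  · refine ⟨.ofAdd (g 0 0 / g 1 0), ?_⟩
    have : g 1 0 ≠ 0 := hg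
    simp [hB, mul_ap, inv_10, inv_11, inv_00, inv_01]
    field_simp
    ring
  · simpa [hB, mul_ap, inv_10, inv_11, inv_00, inv_01] using e
  · simp [hB, mul_ap, inv_10, inv_11, dgHom_apply]
  · have := congrArg (fun g : SL(2, F) => g 0 1) e
    simp only [mul_ap, dgHom_apply, MonoidHom.mk'_apply, dg_00, uu_01, dg_01, uu_11, uu_00, dg_11, Units.val_mk0,
      Units.val_inv_eq_inv_val] at this
    have h7 : (2 * 2 - 1) * u.toAdd = 0 := by field_simp at this; linear_combination this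
    exact toAdd_eq_zero.1 ((mul_eq_zero.1 h7).resolve_left (sub_ne_zero.2 h4))

open CfsgLib.Unitary U3Idx in
theorem r1_SU3 (h5 : 5 ≤ p) {a : ℕ} (ha : 1 ≤ a) (hF : Fintype.card F = p ^ (2 * a)) : R1 p (SU 3 F (p ^ a)) := by
  classical
  have := charP_of_card_eq_prime_pow hF
  obtain ⟨h2, h4, h6⟩ := two_facts (F := F) h5
  have hq : Fact (Fintype.card F = (p ^ a) ^ 2) := ⟨by rw [hF, mul_comm, pow_mul]⟩
  obtain ⟨m⟩ := nonempty_hypB (F := F) (q := p ^ a)
  have h7 : p ≤ p ^ a := Nat.le_self_pow (by omega) p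
  have : Nontrivial (UT F (p ^ a)) := Finite.one_lt_card_iff_nontrivial.1 (by
    rw [UT.card_eq]; exact Nat.one_lt_pow (by norm_num) (by omega))
  refine R1.of_model m.uS m.hS (MulAction.stabilizer _ (m.pt none)) m.wS (Units.mk0 2 h2)
    (su_commutator_eq_top hq.out le_rfl (by omega)) m.uS_injective (n := a * 3)
    (m := ((p ^ a) ^ 2 - 1) * ((p ^ a) ^ 3 + 1)) (by rw [UT.card_eq, pow_mul]) (by rw [card_SU_three, pow_mul])
    (fun h => ?_) (fun g hg => m.exists_of_fix hg) m.uS_smul_none m.hS_smul_none (fun c u => ⟨_, m.hS_mul_uS c u⟩)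
    (fun g hg => ?_) (fun u e => ?_) ?_ (fun u e => ?_) (Units.ext h6)
  · rcases (Nat.Prime.dvd_mul hp.out).1 h with h | h
    · exact not_dvd_sq_sub ha h
    · exact hp.out.one_lt.ne' (Nat.dvd_one.1 ((Nat.dvd_add_right
        ((dvd_pow_self p (by omega)).trans (dvd_pow_self _ three_ne_zero))).1 h))
  · obtain ⟨_ | u, hu⟩ := m.pt_bijective.2 (g • m.pt none)
    · exact absurd hu.symm hg
    · refine ⟨u, ?_⟩
      rw [MulAction.mem_stabilizer_iff, mul_smul, inv_smul_eq_iff, mul_smul, m.wS_smul_none, m.uS_smul_some, mul_one, hu]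
  · rw [MulAction.mem_stabilizer_iff, mul_smul, mul_smul, inv_smul_eq_iff, m.wS_smul_none, m.uS_smul_some, mul_one,
      m.pt_inj] at e
    exact Option.some_injective _ e
  · rw [MulAction.mem_stabilizer_iff, mul_smul, mul_smul, inv_smul_eq_iff, m.wS_smul_none, m.hS_smul_one]
  · rw [m.hS_mul_uS, mul_left_inj] at e
    have h8 := congrArg UT.Y (m.uS_injective e)
    have h9 : (2 : F) ^ p ^ a = 2 := by rw [← one_add_one_eq_two, add_pow_char_pow, one_pow]
    rw [UT.diag_Y, mu_norm, Units.val_mk0, h9] at h8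
    have : (2 * 2 - 1) * u.Y = 0 := by linear_combination h8
    exact UT.eq_one_of_Y ((mul_eq_zero.1 this).resolve_left (sub_ne_zero.2 h4))

end CfsgLib.RkZ
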